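import Mathlib

set_option autoImplicit false

namespace Cfsg.Agent.Lib.Helper5.Witt

theorem exists_functional {F V : Type*} [Field F] [AddCommGroup V] [Module F V]
    (H : Submodule F V) (x y : V) (hx : x ∉ H) (hy : y ∉ H) :
    ∃ l : Module.Dual F V, (∀ h ∈ H, l h = 0) ∧ l x = 1 ∧ l y ≠ 0 := by
  obtain ⟨l1, h1x, h1H⟩ := Submodule.exists_dual_map_eq_bot_of_notMem hx inferInstance
  obtain ⟨l2, h2y, h2H⟩ := Submodule.exists_dual_map_eq_bot_of_notMem hy inferInstance
  have h1H' : ∀ h ∈ H, l1 h = 0 := by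
    intro h hh
    have h3 : l1 h ∈ H.map l1 := Submodule.mem_map_of_mem hh
    rw [h1H] at h3
    exact (Submodule.mem_bot F).mp h3
  have h2H' : ∀ h ∈ H, l2 h = 0 := by
    intro h hh
    have h3 : l2 h ∈ H.map l2 := Submodule.mem_map_of_mem hh
    rw [h2H] at h3
    exact (Submodule.mem_bot F).mp h3
  have key : ∃ l : Module.Dual F V, (∀ h ∈ H, l h = 0) ∧ l x ≠ 0 ∧ l y ≠ 0 := by
    by_cases hc1 : l1 y = 0
    · by_cases hc2 : l2 x = 0
      · refine ⟨l1 + l2, ?_, ?_, ?_⟩
        · intro h hh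
          rw [LinearMap.add_apply, h1H' h hh, h2H' h hh, add_zero]
        · rw [LinearMap.add_apply, hc2, add_zero]
          exact h1x
        · rw [LinearMap.add_apply, hc1, zero_add]
          exact h2y
      · exact ⟨l2, h2H', hc2, h2y⟩
    · exact ⟨l1, h1H', h1x, hc1⟩
  obtain ⟨l, hlH, hlx, hly⟩ := key
  refine ⟨(l x)⁻¹ • l, ?_, ?_, ?_⟩
  · intro h hh
    rw [LinearMap.smul_apply, hlH h hh, smul_zero]
  · rw [LinearMap.smul_apply, smul_eq_mul]
    exact inv_mul_cancel₀ hlx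
  · rw [LinearMap.smul_apply, smul_eq_mul]
    exact mul_ne_zero (inv_ne_zero hlx) hly

theorem witt_induction {F V : Type*} [Field F] [AddCommGroup V] [Module F V]
    [FiniteDimensional F V]
    (Iso : (V ≃ₗ[F] V) → Prop) (f : V →ₗ[F] V) (X : Submodule F V)
    (h1 : Iso (LinearEquiv.refl F V))
    (hstep : ∀ (H : Submodule F V), H ≤ X → ∀ g₀ : V ≃ₗ[F] V, Iso g₀ →
      (∀ h ∈ H, g₀ h = f h) → ∀ x ∈ X, x ∉ H →
      ∃ g : V ≃ₗ[F] V, Iso g ∧ (∀ h ∈ H, g h = f h) ∧ g x = f x) :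
    ∃ g : V ≃ₗ[F] V, Iso g ∧ ∀ x ∈ X, g x = f x := by
  have main : ∀ (n : ℕ) (H : Submodule F V), H ≤ X →
      Module.finrank F X - Module.finrank F H = n →
      (∃ g₀ : V ≃ₗ[F] V, Iso g₀ ∧ ∀ h ∈ H, g₀ h = f h) →
      ∃ g : V ≃ₗ[F] V, Iso g ∧ ∀ x ∈ X, g x = f x := by
    intro n
    induction n using Nat.strong_induction_on with
    | _ n ih =>
      intro H hHX hn ⟨g₀, hg₀, hg₀H⟩
      by_cases hEq : H = X
      · subst hEq
        exact ⟨g₀, hg₀, hg₀H⟩
      · have hlt : H < X := lt_of_le_of_ne hHX hEq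
        obtain ⟨x, hxX, hxH⟩ := SetLike.exists_of_lt hlt
        obtain ⟨g, hg, hgH, hgx⟩ := hstep H hHX g₀ hg₀ hg₀H x hxX hxH
        have hH'X : H ⊔ Submodule.span F {x} ≤ X := by
          apply sup_le hHX
          rw [Submodule.span_singleton_le_iff_mem]
          exact hxX
        have hlt' : H < H ⊔ Submodule.span F {x} := by
          apply lt_of_le_of_ne le_sup_left
          intro h
          apply hxH
          rw [h]
          exact Submodule.mem_sup_right (Submodule.mem_span_singleton_self x)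
        have hr1 := Submodule.finrank_lt_finrank_of_lt hlt'
        have hr2 := Submodule.finrank_mono hH'X
        refine ih (Module.finrank F X - Module.finrank F (H ⊔ Submodule.span F {x} : Submodule F V))
          (by omega) (H ⊔ Submodule.span F {x}) hH'X rfl ⟨g, hg, ?_⟩
        intro w hw
        obtain ⟨a, ha, b, hb, rfl⟩ := Submodule.mem_sup.mp hw
        obtain ⟨c, rfl⟩ := Submodule.mem_span_singleton.mp hb
        rw [map_add, map_add, map_smul, map_smul, hgH a ha, hgx]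
  exact main _ ⊥ bot_le rfl ⟨LinearEquiv.refl F V, h1, by
    intro h hh
    rw [(Submodule.mem_bot F).mp hh, map_zero, map_zero]⟩

end Cfsg.Agent.Lib.Helper5.Witt
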