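import Mathlib
import Cfsg.Agent.S1450
import Cfsg.Agent.Lib.Lead.Cores
import Cfsg.Agent.Lib.Helper9.Cores

set_option autoImplicit false

open Cfsg

namespace Cfsg.Agent.Lib.Helper5.HallTower

open scoped commutatorElement

/-- the `p`-rank bound passes along injective homomorphisms -/
theorem prank_of_inj {H K : Type*} [Group H] [Group K] (p k : ℕ) (f : H →* K)
    (hf : Function.Injective f) (hr : Cfsg.PRankLE p k K) : Cfsg.PRankLE p k H := by
  intro A hAc hAe
  have h1 := hr (A.map f)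
    ⟨⟨fun x y => by
      obtain ⟨x, hx⟩ := x
      obtain ⟨y, hy⟩ := y
      obtain ⟨x', hx', rfl⟩ := hx
      obtain ⟨y', hy', rfl⟩ := hy
      apply Subtype.ext
      have h2 := hAc.is_comm.comm ⟨x', hx'⟩ ⟨y', hy'⟩
      show f x' * f y' = f y' * f x'
      rw [← map_mul, ← map_mul]
      exact congrArg (fun t : ↥A => f (t : H)) h2⟩⟩
    (by
      rintro x ⟨x', hx', rfl⟩
      rw [← map_pow, hAe x' hx', map_one])
  rw [Subgroup.card_map_of_injective hf] at h1
  exact h1

/-- an element acting trivially by conjugation on a normal subgroup commutes with it -/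
theorem comm_of_conj_one {G : Type*} [Group G] (N : Subgroup G) [N.Normal] (g : G)
    (h1 : (MulAut.conjNormal g : MulAut ↥N) = 1) : ∀ h ∈ N, h * g = g * h := by
  intro h hh
  have h3 : (((MulAut.conjNormal g : MulAut ↥N) ⟨h, hh⟩ : ↥N) : G) = g * h * g⁻¹ :=
    MulAut.conjNormal_apply g ⟨h, hh⟩
  rw [h1, MulAut.one_apply] at h3
  have h4 : h = g * h * g⁻¹ := h3
  calc h * g = (g * h * g⁻¹) * g := by rw [← h4]
    _ = g * h := by group

/-- in a group of odd order the `2`-core is trivial -/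
theorem pcore_two {G : Type*} [Group G] [Finite G] (hodd : Odd (Nat.card G)) (q : ℕ)
    [Fact q.Prime] (hq2 : q = 2) (h : G) (hh : h ∈ Cfsg.pCore q G) : h = 1 := by
  have hPp : IsPGroup q ↥(Cfsg.pCore q G) := Cfsg.Agent.Lib.Helper9.pCore_isPGroup q G
  obtain ⟨k, hk⟩ := hPp ⟨h, hh⟩
  have hk' : h ^ q ^ k = 1 := congrArg (fun t : ↥(Cfsg.pCore q G) => (t : G)) hk
  have h1 : orderOf h ∣ q ^ k := orderOf_dvd_of_pow_eq_one hk'
  have h2 : orderOf h ∣ Nat.card G := orderOf_dvd_natCard h
  have h3 : Odd (orderOf h) := Odd.of_dvd_nat hodd h2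
  rw [hq2] at h1
  obtain ⟨j, -, hj⟩ := (Nat.dvd_prime_pow Nat.prime_two).mp h1
  rcases Nat.eq_zero_or_pos j with hj0 | hjpos
  · rw [hj0, pow_zero] at hj
    exact orderOf_eq_one_iff.mp hj
  · exfalso
    rw [hj] at h3
    exact (Nat.not_even_iff_odd.mpr h3) (Nat.even_pow.mpr ⟨even_two, hjpos.ne'⟩)

/-- an element all of whose prime divisors of the order exceed `q` centralizes `O_q(G)` when the
latter has rank at most two (odd order) -/
theorem cent_of_large {G : Type*} [Group G] [Finite G] (hodd : Odd (Nat.card G))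
    (q : ℕ) [Fact q.Prime] (hrk : Cfsg.PRankLE q 2 ↥(Cfsg.pCore q G)) (g : G)
    (hg : ∀ s : ℕ, s.Prime → s ∣ orderOf g → q < s) : ∀ h ∈ Cfsg.pCore q G, h * g = g * h := by
  have hPp : IsPGroup q ↥(Cfsg.pCore q G) := Cfsg.Agent.Lib.Helper9.pCore_isPGroup q G
  by_cases hq2 : q = 2
  · intro h hh
    rw [pcore_two hodd q hq2 h hh, one_mul, mul_one]
  · apply comm_of_conj_one
    obtain ⟨ψ, hψ⟩ : ∃ ψ : G →* MulAut ↥(Cfsg.pCore q G), ψ = MulAut.conjNormal := ⟨_, rfl⟩
    rw [← hψ]
    by_contra hne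
    have ho1 : orderOf (ψ g) ≠ 1 := fun h => hne (orderOf_eq_one_iff.mp h)
    obtain ⟨s, hs, hsd⟩ := Nat.exists_prime_and_dvd ho1
    have hsg : s ∣ orderOf g := dvd_trans hsd (orderOf_map_dvd ψ g)
    have hlt := hg s hs hsg
    have hs2 : s ≠ 2 := by
      intro h
      have h1 : s ∣ Nat.card G := dvd_trans hsg (orderOf_dvd_natCard g)
      rw [h] at h1
      exact (Nat.not_even_iff_odd.mpr hodd) (even_iff_two_dvd.mpr h1)
    have hpos : orderOf (ψ g) ≠ 0 := by
      intro h
      have h5 := orderOf_map_dvd ψ g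
      rw [h, zero_dvd_iff] at h5
      exact (orderOf_pos g).ne' h5
    obtain ⟨m, hm⟩ := hsd
    have hβ : ((ψ g) ^ m) ^ s = 1 := by
      rw [← pow_mul, mul_comm, ← hm]; exact pow_orderOf_eq_one _
    have h1 : (MonoidHom.id (MulAut ↥(Cfsg.pCore q G))) ((ψ g) ^ m) = 1 :=
      Cfsg.Agent.S1450.core2 q hq2 hPp hrk (MonoidHom.id _) ((ψ g) ^ m) s hs hs2 hlt hβ
    have h2 : (ψ g) ^ m = 1 := h1
    have h3 : orderOf (ψ g) ∣ m := orderOf_dvd_of_pow_eq_one h2
    rw [hm] at h3
    have hmpos : 0 < m := by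
      rcases Nat.eq_zero_or_pos m with h | h
      · rw [h, mul_zero] at hm; exact absurd hm hpos
      · exact h
    have h6 := Nat.le_of_dvd hmpos h3
    have h7 : 2 * m ≤ s * m := Nat.mul_le_mul_right m hs.two_le
    omega

/-- splitting a power of a product of commuting elements from subgroups meeting trivially -/
theorem split_pow {G : Type*} [Group G] (A B : Subgroup G) (hAB : A ⊓ B = ⊥)
    (hc : ∀ a ∈ A, ∀ b ∈ B, a * b = b * a) (a b : G) (ha : a ∈ A) (hb : b ∈ B) (n : ℕ)
    (h : (a * b) ^ n = 1) : a ^ n = 1 ∧ b ^ n = 1 := by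
  have hcomm : Commute a b := hc a ha b hb
  have hpow : a ^ n * b ^ n = 1 := by rw [← hcomm.mul_pow n]; exact h
  have h2 : (a ^ n)⁻¹ = b ^ n := inv_eq_of_mul_eq_one_right hpow
  have hb1 : b ^ n ∈ A ⊓ B := by
    refine Subgroup.mem_inf.mpr ⟨?_, Subgroup.pow_mem _ hb _⟩
    rw [← h2]; exact Subgroup.inv_mem _ (Subgroup.pow_mem _ ha _)
  rw [hAB, Subgroup.mem_bot] at hb1
  refine ⟨?_, hb1⟩
  rw [hb1, mul_one] at hpow
  exact hpow

theorem eq_one_of_coprime_pow {G : Type*} [Group G] (x : G) (m n : ℕ) (hm : x ^ m = 1)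
    (hn : x ^ n = 1) (hco : m.Coprime n) : x = 1 := by
  have h1 : orderOf x ∣ m := orderOf_dvd_of_pow_eq_one hm
  have h2 : orderOf x ∣ n := orderOf_dvd_of_pow_eq_one hn
  have h3 := Nat.dvd_gcd h1 h2
  rw [Nat.Coprime.gcd_eq_one hco] at h3
  exact orderOf_eq_one_iff.mp (Nat.dvd_one.mp h3)

theorem pcore_comm {G : Type*} [Group G] [Finite G] (r : ℕ) [Fact r.Prime] :
    ∀ a ∈ Cfsg.pCore r G, ∀ b ∈ Cfsg.pPrimeCore r G, a * b = b * a := by
  intro a ha b hb
  have h := Cfsg.Agent.Lib.Helper9.pCore_commute_pPrimeCore r G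
  rw [Subgroup.commutator_eq_bot_iff_le_centralizer] at h
  have h1 := h ha
  rw [Subgroup.mem_centralizer_iff] at h1
  exact (h1 b hb).symm

/-- an `r`-element of the Fitting subgroup lies in `O_r(G)` -/
theorem mem_pCore_of_mem_fitting {G : Type*} [Group G] [Finite G] (r : ℕ) [Fact r.Prime] (g : G)
    (hg : g ∈ Cfsg.fittingSubgroup G) (k : ℕ) (hk : g ^ r ^ k = 1) : g ∈ Cfsg.pCore r G := by
  have hle := Cfsg.Agent.Lib.Lead.Cores.fittingSubgroup_le_sup (G := G) r
  obtain ⟨a, ha, b, hb, hab⟩ := Subgroup.mem_sup_of_normal_left.mp (hle hg)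
  obtain ⟨-, hb1⟩ := split_pow (Cfsg.pCore r G) (Cfsg.pPrimeCore r G)
    (Cfsg.Agent.Lib.Helper9.pCore_inf_pPrimeCore r G) (pcore_comm r) a b ha hb (r ^ k)
    (by rw [hab]; exact hk)
  have hco := Cfsg.Agent.Lib.Helper9.pPrimeCore_coprime r G
  have h4 : b ^ Nat.card ↥(Cfsg.pPrimeCore r G) = 1 := by
    have h5 : (⟨b, hb⟩ : ↥(Cfsg.pPrimeCore r G)) ^ Nat.card ↥(Cfsg.pPrimeCore r G) = 1 :=
      pow_card_eq_one'
    exact congrArg (fun t : ↥(Cfsg.pPrimeCore r G) => (t : G)) h5
  have hb2 : b = 1 := eq_one_of_coprime_pow b _ _ h4 hb1 (Nat.Coprime.pow_right k hco)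
  rw [← hab, hb2, mul_one]; exact ha

/-- the Hall tower: a characteristic Hall subgroup for the primes greater than `p` -/
theorem hall_tower {G : Type*} [Group G] [Finite G] (hodd : Odd (Nat.card G))
    (hrk : ∀ q : ℕ, [Fact q.Prime] → Cfsg.PRankLE q 2 ↥(Cfsg.pCore q G))
    (hKF : commutator G ≤ Cfsg.fittingSubgroup G) (p : ℕ) :
    ∃ N : Subgroup G, N.Characteristic ∧ Cfsg.IsPiHall {q | q.Prime ∧ p < q} N := by
  classical
  obtain ⟨M, hM⟩ : ∃ M : Subgroup G,
      M = Subgroup.closure {g : G | ∀ s : ℕ, s.Prime → s ∣ orderOf g → p < s} := ⟨_, rfl⟩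
  have hgen : ∀ g : G, (∀ s : ℕ, s.Prime → s ∣ orderOf g → p < s) → g ∈ M := by
    intro g hg
    rw [hM]; exact Subgroup.subset_closure hg
  have hMclos : ∀ L : Subgroup G, (∀ g : G, (∀ s : ℕ, s.Prime → s ∣ orderOf g → p < s) → g ∈ L) →
      M ≤ L := by
    intro L hL
    rw [hM, Subgroup.closure_le]
    intro g hg
    exact hL g hg
  have hMchar : M.Characteristic := by
    rw [Subgroup.characteristic_iff_map_le]
    intro φ
    rw [hM, MonoidHom.map_closure]
    apply Subgroup.closure_mono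
    rintro _ ⟨g, hg, rfl⟩
    intro s hs hsd
    apply hg s hs
    have h1 : orderOf (φ.toMonoidHom g) = orderOf g := MulEquiv.orderOf_eq φ g
    rwa [h1] at hsd
  refine ⟨M, hMchar, ?_, ?_⟩
  · -- primes dividing the order of M exceed p
    intro r hr hrd
    refine ⟨hr, ?_⟩
    by_contra hle
    push Not at hle
    have : Fact r.Prime := ⟨hr⟩
    have hMc : ∀ x ∈ M, ∀ h ∈ Cfsg.pCore r G, h * x = x * h := by
      intro x hx
      have h0 : M ≤ Subgroup.centralizer ((Cfsg.pCore r G : Subgroup G) : Set G) := by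
        apply hMclos
        intro g hg
        rw [Subgroup.mem_centralizer_iff]
        exact cent_of_large hodd r (hrk r) g (fun s hs hsd => lt_of_le_of_lt hle (hg s hs hsd))
      have h1 := h0 hx
      rw [Subgroup.mem_centralizer_iff] at h1
      exact h1
    have hFn : (Cfsg.fittingSubgroup G).Normal := Cfsg.Agent.Lib.Lead.Cores.fittingSubgroup_normal
    have hab : ∀ a b : G ⧸ Cfsg.fittingSubgroup G, a * b = b * a := by
      intro a b
      induction a using QuotientGroup.induction_on with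
      | H a =>
      induction b using QuotientGroup.induction_on with
      | H b =>
      rw [← QuotientGroup.mk_mul, ← QuotientGroup.mk_mul, QuotientGroup.eq]
      apply hKF
      have h1 : (a * b)⁻¹ * (b * a) = ⁅b⁻¹, a⁻¹⁆ := by rw [commutatorElement_def]; group
      rw [h1, commutator_def]
      exact Subgroup.commutator_mem_commutator (Subgroup.mem_top _) (Subgroup.mem_top _)
    let Tq : Subgroup (G ⧸ Cfsg.fittingSubgroup G) :=
      { carrier := {y | ∀ s : ℕ, s.Prime → s ∣ orderOf y → p < s}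
        one_mem' := by
          intro s hs hsd
          rw [orderOf_one] at hsd
          exact absurd (Nat.dvd_one.mp hsd) hs.ne_one
        mul_mem' := by
          intro a b ha hb s hs hsd
          have h1 : orderOf (a * b) ∣ Nat.lcm (orderOf a) (orderOf b) :=
            Commute.orderOf_mul_dvd_lcm (hab a b)
          have h2 : s ∣ orderOf a * orderOf b :=
            dvd_trans hsd (dvd_trans h1 (Nat.lcm_dvd_mul _ _))
          rcases (Nat.Prime.dvd_mul hs).mp h2 with h | h
          · exact ha s hs h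
          · exact hb s hs h
        inv_mem' := by
          intro a ha s hs hsd
          rw [orderOf_inv] at hsd
          exact ha s hs hsd }
    have hMT : M ≤ Tq.comap (QuotientGroup.mk' (Cfsg.fittingSubgroup G)) := by
      apply hMclos
      intro g hg
      rw [Subgroup.mem_comap]
      intro s hs hsd
      exact hg s hs (dvd_trans hsd (orderOf_map_dvd _ g))
    have hMr : ∀ x ∈ M, ∀ k : ℕ, x ^ r ^ k = 1 → x ∈ Cfsg.pCore r G := by
      intro x hx k hk
      have h1 : (QuotientGroup.mk' (Cfsg.fittingSubgroup G) x) ∈ Tq := Subgroup.mem_comap.mp (hMT hx)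
      have h2 : orderOf (QuotientGroup.mk' (Cfsg.fittingSubgroup G) x) ∣ r ^ k := by
        apply orderOf_dvd_of_pow_eq_one
        rw [← map_pow, hk, map_one]
      have h3 : orderOf (QuotientGroup.mk' (Cfsg.fittingSubgroup G) x) = 1 := by
        by_contra hne
        obtain ⟨s, hs, hsd⟩ := Nat.exists_prime_and_dvd hne
        have h4 : s = r :=
          (Nat.prime_dvd_prime_iff_eq hs hr).mp (hs.dvd_of_dvd_pow (dvd_trans hsd h2))
        have h5 := h1 s hs hsd
        omega
      have h6 : x ∈ Cfsg.fittingSubgroup G :=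
        (QuotientGroup.eq_one_iff x).mp (orderOf_eq_one_iff.mp h3)
      exact mem_pCore_of_mem_fitting r x h6 k hk
    obtain ⟨R⟩ : Nonempty (Sylow r ↥M) := inferInstance
    have hRc : Subgroup.normalizer ((R : Subgroup ↥M) : Set ↥M) ≤
        Subgroup.centralizer ((R : Subgroup ↥M) : Set ↥M) := by
      intro n _
      rw [Subgroup.mem_centralizer_iff]
      intro x hx
      obtain ⟨k, hk⟩ := R.isPGroup' ⟨x, hx⟩
      have hk' : (x : G) ^ r ^ k = 1 :=
        congrArg (fun t : ↥(R : Subgroup ↥M) => ((t : ↥M) : G)) hk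
      have h1 := hMr (x : G) x.2 k hk'
      exact Subtype.ext (hMc (n : G) n.2 (x : G) h1)
    have hcompl := MonoidHom.ker_transferSylow_isComplement' R hRc
    have hker : (MonoidHom.transferSylow R hRc).ker = ⊤ := by
      have hle2 : M ≤ ((MonoidHom.transferSylow R hRc).ker).map M.subtype := by
        apply hMclos
        intro g hg
        refine ⟨⟨g, hgen g hg⟩, ?_, rfl⟩
        rw [SetLike.mem_coe, MonoidHom.mem_ker]
        have h1 : orderOf (MonoidHom.transferSylow R hRc ⟨g, hgen g hg⟩) ∣ orderOf g := by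
          have h0 := orderOf_map_dvd (MonoidHom.transferSylow R hRc) (⟨g, hgen g hg⟩ : ↥M)
          rwa [Subgroup.orderOf_mk g (hgen g hg)] at h0
        obtain ⟨k, hk⟩ := R.isPGroup' (MonoidHom.transferSylow R hRc ⟨g, hgen g hg⟩)
        have h2 : orderOf (MonoidHom.transferSylow R hRc ⟨g, hgen g hg⟩) ∣ r ^ k :=
          orderOf_dvd_of_pow_eq_one hk
        by_contra hne
        have hne' : orderOf (MonoidHom.transferSylow R hRc ⟨g, hgen g hg⟩) ≠ 1 :=
          fun h => hne (orderOf_eq_one_iff.mp h)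
        obtain ⟨s, hs, hsd⟩ := Nat.exists_prime_and_dvd hne'
        have h4 : s = r :=
          (Nat.prime_dvd_prime_iff_eq hs hr).mp (hs.dvd_of_dvd_pow (dvd_trans hsd h2))
        have h5 := hg s hs (dvd_trans hsd h1)
        omega
      rw [eq_top_iff]
      intro x _
      obtain ⟨x', hx', hxx⟩ := hle2 x.2
      have h1 : x' = x := Subtype.ext hxx
      rw [← h1]; exact hx'
    rw [hker] at hcompl
    have hRbot : (R : Subgroup ↥M) = ⊥ := Subgroup.isComplement'_top_left.mp hcompl
    exact R.ne_bot_of_dvd_card hrd hRbot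
  · -- primes above p do not divide the index
    intro q hq hqπ
    obtain ⟨-, hpq⟩ := hqπ
    have : Fact q.Prime := ⟨hq⟩
    obtain ⟨S⟩ : Nonempty (Sylow q G) := inferInstance
    have hSM : (S : Subgroup G) ≤ M := by
      intro x hx
      apply hgen
      intro s hs hsd
      obtain ⟨k, hk⟩ := S.isPGroup' ⟨x, hx⟩
      have hk' : x ^ q ^ k = 1 := congrArg (fun t : ↥(S : Subgroup G) => (t : G)) hk
      have h4 : s = q := (Nat.prime_dvd_prime_iff_eq hs hq).mp
        (hs.dvd_of_dvd_pow (dvd_trans hsd (orderOf_dvd_of_pow_eq_one hk')))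
      omega
    intro hdvd
    exact S.not_dvd_index (dvd_trans hdvd (Subgroup.index_dvd_of_le hSM))

end Cfsg.Agent.Lib.Helper5.HallTower
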