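import Mathlib
import Cfsg.Agent.Lib.Helper5.HallTower
import Cfsg.Agent.S0044

set_option autoImplicit false

open Cfsg

namespace Cfsg.Agent.Lib.Helper5.HallTower

open scoped commutatorElement

/-- an element of the derived subgroup of order prime to `q` centralizes `O_q(G)` when the latter
has rank at most two (odd order, solvable) -/
theorem cent_of_coprime {G : Type*} [Group G] [Finite G] [Group.IsSolvable G]
    (hodd : Odd (Nat.card G)) (q : ℕ) [Fact q.Prime]
    (hrk : Cfsg.PRankLE q 2 ↥(Cfsg.pCore q G)) (g : G) (hg : g ∈ commutator G)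
    (hco : (orderOf g).Coprime q) : ∀ h ∈ Cfsg.pCore q G, h * g = g * h := by
  have hPp : IsPGroup q ↥(Cfsg.pCore q G) := Cfsg.Agent.Lib.Helper9.pCore_isPGroup q G
  by_cases hq2 : q = 2
  · intro h hh
    rw [pcore_two hodd q hq2 h hh, one_mul, mul_one]
  · apply comm_of_conj_one
    obtain ⟨ψ, hψ⟩ : ∃ ψ : G →* MulAut ↥(Cfsg.pCore q G), ψ = MulAut.conjNormal := ⟨_, rfl⟩
    rw [← hψ]
    have hθ : ∀ x : G, QuotientGroup.kerLift ψ (QuotientGroup.mk' ψ.ker x) = ψ x :=
      fun x => QuotientGroup.kerLift_mk ψ x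
    have hXodd : Odd (Nat.card (G ⧸ ψ.ker)) :=
      Odd.of_dvd_nat hodd (Subgroup.card_quotient_dvd_card _)
    have hmem : (QuotientGroup.mk' ψ.ker g) ∈ commutator (G ⧸ ψ.ker) := by
      have h1 : (QuotientGroup.mk' ψ.ker) g ∈ (commutator G).map (QuotientGroup.mk' ψ.ker) :=
        Subgroup.mem_map_of_mem _ hg
      rw [commutator_def, Subgroup.map_commutator] at h1
      exact Subgroup.commutator_mono le_top le_top h1
    have hco' : (orderOf (QuotientGroup.mk' ψ.ker g)).Coprime q :=
      Nat.Coprime.coprime_dvd_left (orderOf_map_dvd _ g) hco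
    have h1 := Cfsg.Agent.S1449.core q hq2 hPp hrk hXodd (QuotientGroup.kerLift ψ)
      (QuotientGroup.kerLift_injective ψ) _ hmem hco'
    rw [← hθ g, h1, map_one]

/-- the derived subgroup lies in the Fitting subgroup -/
theorem comm_le_fitting {G : Type*} [Group G] [Finite G] [Group.IsSolvable G]
    (hodd : Odd (Nat.card G))
    (hrk : ∀ q : ℕ, [Fact q.Prime] → Cfsg.PRankLE q 2 ↥(Cfsg.pCore q G)) :
    commutator G ≤ Cfsg.fittingSubgroup G := by
  classical
  obtain ⟨K, hK⟩ : ∃ K : Subgroup G, K = commutator G := ⟨_, rfl⟩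
  rw [← hK]
  have hKn : K.Normal := by rw [hK]; infer_instance
  have main : ∀ (r : ℕ) [Fact r.Prime] (g : G), g ∈ K → (∃ k : ℕ, g ^ r ^ k = 1) →
      g ∈ Cfsg.fittingSubgroup G := by
    intro r _ g hgK ⟨k, hk⟩
    have hrp : r.Prime := Fact.out
    obtain ⟨W, hW⟩ : ∃ W : Subgroup G, W = ⨆ q : {q : Nat.Primes // (q : ℕ) ≠ r},
        Cfsg.pCore ((q : Nat.Primes) : ℕ) G := ⟨_, rfl⟩
    have hWn : W.Normal := by rw [hW]; infer_instance
    have hW1 : Cfsg.fittingSubgroup G ≤ Cfsg.pCore r G ⊔ W := by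
      rw [Cfsg.Agent.Lib.Lead.Cores.fittingSubgroup_eq_iSup_pCore]
      apply iSup_le
      intro q
      by_cases hqr : (q : ℕ) = r
      · rw [hqr]; exact le_sup_left
      · refine le_trans ?_ le_sup_right
        rw [hW]
        exact le_iSup (fun q : {q : Nat.Primes // (q : ℕ) ≠ r} =>
          Cfsg.pCore ((q : Nat.Primes) : ℕ) G) ⟨q, hqr⟩
    have hW2 : W ≤ Cfsg.pPrimeCore r G := by
      rw [hW]
      apply iSup_le
      rintro ⟨q, hqr⟩
      have : Fact (q : ℕ).Prime := ⟨q.2⟩
      apply Cfsg.Agent.Lib.Lead.Cores.le_pPrimeCore (Cfsg.Agent.Lib.Lead.Cores.pCore_normal _)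
      obtain ⟨n, hn⟩ :=
        (Cfsg.Agent.Lib.Lead.Cores.pCore_isPGroup (G := G) (q : ℕ)).exists_card_eq
      rw [hn]
      exact Nat.Coprime.pow_left _ ((Nat.coprime_primes q.2 hrp).2 hqr)
    have hW3 : ∀ x : G, (∀ q : ℕ, q.Prime → q ≠ r → ∀ h ∈ Cfsg.pCore q G, h * x = x * h) →
        x ∈ Subgroup.centralizer (W : Set G) := by
      intro x hx
      have hle : W ≤ Subgroup.centralizer ({x} : Set G) := by
        rw [hW]
        apply iSup_le
        rintro ⟨q, hqr⟩ h hh
        rw [Subgroup.mem_centralizer_iff]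
        intro y hy
        rw [Set.mem_singleton_iff] at hy
        rw [hy]
        exact (hx q q.2 hqr h hh).symm
      rw [Subgroup.mem_centralizer_iff]
      intro h hh
      have h1 := hle hh
      rw [Subgroup.mem_centralizer_iff] at h1
      exact (h1 x (Set.mem_singleton x)).symm
    obtain ⟨N, hN⟩ : ∃ N : Subgroup G, N = K ⊓ Subgroup.centralizer (W : Set G) := ⟨_, rfl⟩
    have hNn : N.Normal := by rw [hN]; infer_instance
    have hgN : g ∈ N := by
      rw [hN]
      refine Subgroup.mem_inf.mpr ⟨hgK, hW3 g ?_⟩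
      intro q hq hqr h hh
      have : Fact q.Prime := ⟨hq⟩
      have hco : (orderOf g).Coprime q := by
        have h1 : orderOf g ∣ r ^ k := orderOf_dvd_of_pow_eq_one hk
        exact Nat.Coprime.coprime_dvd_left h1
          (Nat.Coprime.pow_left k ((Nat.coprime_primes hrp hq).mpr (Ne.symm hqr)))
      exact cent_of_coprime hodd q (hrk q) g (by rw [← hK]; exact hgK) hco h hh
    have hcen : ∀ x ∈ N, (orderOf x).Coprime r → ∀ n ∈ N, n * x = x * n := by
      intro x hxN hxco n hnN
      rw [hN] at hxN hnN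
      obtain ⟨hxK, hxC⟩ := Subgroup.mem_inf.mp hxN
      obtain ⟨hnK, hnC⟩ := Subgroup.mem_inf.mp hnN
      have hxall : ∀ q : ℕ, q.Prime → ∀ h ∈ Cfsg.pCore q G, h * x = x * h := by
        intro q hq h hh
        by_cases hqr : q = r
        · rw [hqr] at hh
          exact cent_of_coprime hodd r (hrk r) x (by rw [← hK]; exact hxK) hxco h hh
        · have h1 : h ∈ W := by
            rw [hW]
            exact (le_iSup (fun q : {q : Nat.Primes // (q : ℕ) ≠ r} =>
              Cfsg.pCore ((q : Nat.Primes) : ℕ) G) ⟨⟨q, hq⟩, hqr⟩) hh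
          rw [Subgroup.mem_centralizer_iff] at hxC
          exact hxC h h1
      have hxF : x ∈ Cfsg.fittingSubgroup G := by
        apply Cfsg.Agent.S0044.result
        have hle : Cfsg.fittingSubgroup G ≤ Subgroup.centralizer ({x} : Set G) := by
          rw [Cfsg.Agent.Lib.Lead.Cores.fittingSubgroup_eq_iSup_pCore]
          apply iSup_le
          intro q h' hh'
          rw [Subgroup.mem_centralizer_iff]
          intro y hy
          rw [Set.mem_singleton_iff] at hy
          rw [hy]
          exact (hxall q q.2 h' hh').symm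
        rw [Subgroup.mem_centralizer_iff]
        intro h hh
        have h1 := hle hh
        rw [Subgroup.mem_centralizer_iff] at h1
        exact (h1 x (Set.mem_singleton x)).symm
      have hxW : x ∈ W := by
        obtain ⟨a, ha, w, hw, hx⟩ := Subgroup.mem_sup_of_normal_left.mp (hW1 hxF)
        obtain ⟨h1, -⟩ := split_pow (Cfsg.pCore r G) (Cfsg.pPrimeCore r G)
          (Cfsg.Agent.Lib.Helper9.pCore_inf_pPrimeCore r G) (pcore_comm r) a w ha (hW2 hw)
          (orderOf x) (by rw [hx]; exact pow_orderOf_eq_one x)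
        obtain ⟨j, hj⟩ := (Cfsg.Agent.Lib.Helper9.pCore_isPGroup r G) ⟨a, ha⟩
        have hj' : a ^ r ^ j = 1 := congrArg (fun t : ↥(Cfsg.pCore r G) => (t : G)) hj
        have ha1 : a = 1 := eq_one_of_coprime_pow a _ _ h1 hj' (Nat.Coprime.pow_right j hxco)
        rw [← hx, ha1, one_mul]; exact hw
      rw [Subgroup.mem_centralizer_iff] at hnC
      exact (hnC x hxW).symm
    have hNnil : Group.IsNilpotent ↥N := by
      have hq : IsPGroup r (↥N ⧸ Subgroup.center ↥N) := by
        intro y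
        induction y using QuotientGroup.induction_on with
        | H x =>
        have ho : orderOf x ≠ 0 := (orderOf_pos x).ne'
        obtain ⟨j, m, hm, hjm⟩ := Nat.exists_eq_pow_mul_and_not_dvd ho r hrp.ne_one
        refine ⟨j, ?_⟩
        rw [← QuotientGroup.mk_pow, QuotientGroup.eq_one_iff, Subgroup.mem_center_iff]
        intro n
        have h1 : orderOf (x ^ r ^ j) = m := by
          rw [orderOf_pow' x (pow_ne_zero j hrp.ne_zero), hjm, Nat.gcd_eq_right (Dvd.intro _ rfl)]
          exact Nat.mul_div_cancel_left m (pow_pos hrp.pos j)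
        have h2 : (orderOf ((x ^ r ^ j : ↥N) : G)).Coprime r := by
          rw [Subgroup.orderOf_coe, h1]
          exact ((Nat.Prime.coprime_iff_not_dvd hrp).mpr hm).symm
        have h3 := hcen ((x ^ r ^ j : ↥N) : G) (x ^ r ^ j).2 h2 (n : G) n.2
        exact Subtype.ext h3
      have : Group.IsNilpotent (↥N ⧸ Subgroup.center ↥N) := hq.isNilpotent
      exact Subgroup.isNilpotent_of_ker_le_center (QuotientGroup.mk' (Subgroup.center ↥N))
        (by rw [QuotientGroup.ker_mk'])
    exact (Cfsg.Agent.Lib.Lead.Cores.le_fittingSubgroup hNn hNnil) hgN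
  have hJ : (Cfsg.fittingSubgroup G).subgroupOf K = ⊤ := by
    apply Cfsg.Agent.Lib.Helper9.eq_top_of_forall_exists_sylow_le
    intro r hr
    obtain ⟨P⟩ : Nonempty (Sylow r ↥K) := inferInstance
    refine ⟨P, ?_⟩
    intro x hx
    rw [Subgroup.mem_subgroupOf]
    obtain ⟨k, hk⟩ := P.isPGroup' ⟨x, hx⟩
    have hk' : (x : G) ^ r ^ k = 1 :=
      congrArg (fun t : ↥(P : Subgroup ↥K) => ((t : ↥K) : G)) hk
    exact main r (x : G) x.2 ⟨k, hk'⟩
  exact Subgroup.subgroupOf_eq_top.mp hJ

/-- nilpotency of the derived subgroup -/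
theorem comm_nilpotent {G : Type*} [Group G] [Finite G]
    (hKF : commutator G ≤ Cfsg.fittingSubgroup G) : Group.IsNilpotent ↥(commutator G) := by
  have : Group.IsNilpotent ↥(Cfsg.fittingSubgroup G) :=
    Cfsg.Agent.Lib.Lead.Cores.fittingSubgroup_isNilpotent
  exact Subgroup.isNilpotent_of_ker_le_center (Subgroup.inclusion hKF) (by
    rw [(MonoidHom.ker_eq_bot_iff _).mpr (Subgroup.inclusion_injective hKF)]; exact bot_le)

/-- a characteristic subgroup of `S` is normalized by the normalizer of `S` -/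
theorem char_norm {G : Type*} [Group G] (S : Subgroup G) (T : Subgroup ↥S) (hT : T.Characteristic)
    (n : G) (hn : n ∈ Subgroup.normalizer (S : Set G)) (t : G) (ht : t ∈ T.map S.subtype) :
    n * t * n⁻¹ ∈ T.map S.subtype := by
  let e : ↥S ≃* ↥S :=
    { toFun := fun s => ⟨n * s * n⁻¹, (Subgroup.mem_normalizer_iff.mp hn s).mp s.2⟩
      invFun := fun s => ⟨n⁻¹ * s * n, by
        apply (Subgroup.mem_normalizer_iff.mp hn (n⁻¹ * s * n)).mpr
        have h : n * (n⁻¹ * (s : G) * n) * n⁻¹ = s := by group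
        rw [h]; exact s.2⟩
      left_inv := fun s => Subtype.ext (by
        show n⁻¹ * (n * (s : G) * n⁻¹) * n = s
        group)
      right_inv := fun s => Subtype.ext (by
        show n * (n⁻¹ * (s : G) * n) * n⁻¹ = s
        group)
      map_mul' := fun a b => Subtype.ext (by
        show n * ((a : G) * b) * n⁻¹ = (n * a * n⁻¹) * (n * b * n⁻¹)
        group) }
  obtain ⟨x, hx, rfl⟩ := ht
  have h1 := Subgroup.characteristic_iff_map_le.1 hT e
  exact ⟨e x, h1 ⟨x, hx, rfl⟩, rfl⟩

/-- characteristic subgroups of a Sylow subgroup inside its derived subgroup are normal -/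
theorem char_normal {G : Type*} [Group G] [Finite G] [Group.IsSolvable G]
    (hodd : Odd (Nat.card G))
    (hrk : ∀ q : ℕ, [Fact q.Prime] → Cfsg.PRankLE q 2 ↥(Cfsg.pCore q G))
    (hKF : commutator G ≤ Cfsg.fittingSubgroup G)
    (q : ℕ) [Fact q.Prime] (S : Sylow q G) (T : Subgroup ↥(S : Subgroup G))
    (hT : T.Characteristic)
    (hTle : T.map (S : Subgroup G).subtype ≤ ⁅(S : Subgroup G), (S : Subgroup G)⁆) :
    (T.map (S : Subgroup G).subtype).Normal := by
  have hqp : q.Prime := Fact.out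
  obtain ⟨T', hT'⟩ : ∃ T' : Subgroup G, T' = T.map (S : Subgroup G).subtype := ⟨_, rfl⟩
  rw [← hT']
  have hT'S : T' ≤ (S : Subgroup G) := by rw [hT']; exact Subgroup.map_subtype_le _
  have hT'O : T' ≤ Cfsg.pCore q G := by
    intro t ht
    have h1 : t ∈ commutator G := by
      have h0 : t ∈ ⁅(S : Subgroup G), (S : Subgroup G)⁆ := hTle (by rw [← hT']; exact ht)
      rw [commutator_def]
      exact Subgroup.commutator_mono le_top le_top h0
    obtain ⟨k, hk⟩ := S.isPGroup' ⟨t, hT'S ht⟩
    have hk' : t ^ q ^ k = 1 := congrArg (fun x : ↥(S : Subgroup G) => (x : G)) hk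
    exact mem_pCore_of_mem_fitting q t (hKF h1) k hk'
  have hOS : Cfsg.pCore q G ≤ (S : Subgroup G) :=
    (Cfsg.Agent.Lib.Helper9.pCore_isPGroup q G).le_sylow_of_normal S
  obtain ⟨H, hH⟩ : ∃ H : Subgroup G, H = Subgroup.normalizer (T' : Set G) := ⟨_, rfl⟩
  have h1 : Subgroup.normalizer ((S : Subgroup G) : Set G) ≤ H := by
    intro n hn
    rw [hH, Subgroup.mem_normalizer_iff]
    intro t
    constructor
    · intro ht
      rw [hT'] at ht ⊢
      exact char_norm (S : Subgroup G) T hT n hn t ht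
    · intro ht
      have hn' : n⁻¹ ∈ Subgroup.normalizer ((S : Subgroup G) : Set G) := Subgroup.inv_mem _ hn
      rw [hT'] at ht ⊢
      have h0 := char_norm (S : Subgroup G) T hT n⁻¹ hn' _ ht
      have h2 : n⁻¹ * (n * t * n⁻¹) * n⁻¹⁻¹ = t := by group
      rwa [h2] at h0
  have h2 : (S : Subgroup G) ≤ H := le_trans Subgroup.le_normalizer h1
  have h3 : commutator G ≤ H := by
    intro k hk
    have ho : orderOf k ≠ 0 := (orderOf_pos k).ne'
    obtain ⟨j, m, hm, hjm⟩ := Nat.exists_eq_pow_mul_and_not_dvd ho q hqp.ne_one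
    have hcop : Nat.Coprime (q ^ j) m :=
      Nat.Coprime.pow_left j ((Nat.Prime.coprime_iff_not_dvd hqp).mpr hm)
    have hA : k ^ q ^ j ∈ H := by
      have hord : orderOf (k ^ q ^ j) = m := by
        rw [orderOf_pow' k (pow_ne_zero j hqp.ne_zero), hjm, Nat.gcd_eq_right (Dvd.intro _ rfl)]
        exact Nat.mul_div_cancel_left m (pow_pos hqp.pos j)
      have hco : (orderOf (k ^ q ^ j)).Coprime q := by
        rw [hord]; exact ((Nat.Prime.coprime_iff_not_dvd hqp).mpr hm).symm
      have hc := cent_of_coprime hodd q (hrk q) (k ^ q ^ j) (Subgroup.pow_mem _ hk _) hco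
      have hcen : k ^ q ^ j ∈ Subgroup.centralizer (T' : Set G) := by
        rw [Subgroup.mem_centralizer_iff]
        intro t ht
        exact hc t (hT'O ht)
      rw [hH]
      exact Subgroup.centralizer_le_normalizer _ hcen
    have hB : k ^ m ∈ H := by
      have hpow : (k ^ m) ^ q ^ j = 1 := by
        rw [← pow_mul, mul_comm, ← hjm]; exact pow_orderOf_eq_one k
      have h5 : k ^ m ∈ Cfsg.pCore q G :=
        mem_pCore_of_mem_fitting q _ (hKF (Subgroup.pow_mem _ hk _)) j hpow
      exact h2 (hOS h5)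
    have hb := Nat.gcd_eq_gcd_ab (q ^ j) m
    rw [Nat.Coprime.gcd_eq_one hcop] at hb
    have hk1 : k = (k ^ q ^ j) ^ (Nat.gcdA (q ^ j) m) * (k ^ m) ^ (Nat.gcdB (q ^ j) m) := by
      rw [← zpow_natCast k (q ^ j), ← zpow_natCast k m, ← zpow_mul, ← zpow_mul, ← zpow_add, ← hb]
      simp
    rw [hk1]
    exact H.mul_mem (H.zpow_mem hA _) (H.zpow_mem hB _)
  obtain ⟨M, hM⟩ : ∃ M : Subgroup G, M = (S : Subgroup G) ⊔ commutator G := ⟨_, rfl⟩
  have hSM : (S : Subgroup G) ≤ M := by rw [hM]; exact le_sup_left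
  have hKM : commutator G ≤ M := by rw [hM]; exact le_sup_right
  have hMn : M.Normal := ⟨fun x hx g => by
    have h5 : g * x * g⁻¹ = ⁅g, x⁆ * x := by rw [commutatorElement_def]; group
    rw [h5]
    apply M.mul_mem _ hx
    apply hKM
    rw [commutator_def]
    exact Subgroup.commutator_mem_commutator (Subgroup.mem_top _) (Subgroup.mem_top _)⟩
  have hfr := Sylow.normalizer_sup_eq_top (S.subtype hSM)
  have himg : ((S.subtype hSM : Sylow q ↥M) : Subgroup ↥M).map M.subtype = (S : Subgroup G) := by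
    rw [Sylow.coe_subtype, Subgroup.subgroupOf_map_subtype, inf_eq_left.mpr hSM]
  rw [himg] at hfr
  have htop : H = ⊤ := by
    rw [eq_top_iff, ← hfr]
    apply sup_le h1
    rw [hM]; exact sup_le h2 h3
  rw [hH] at htop
  exact Subgroup.normalizer_eq_top_iff.mp htop

end Cfsg.Agent.Lib.Helper5.HallTower
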